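import Cfsg.Agent.FT
import Cfsg.Agent.Blk.Zmain

/-!
# Glauberman's Z*-theorem and the Brauer-Suzuki theorem: interface
-/

set_option autoImplicit false

open Cfsg CA.FG

namespace CA.Blk

universe u

/-- Glauberman's Z*-theorem: an isolated involution is central modulo the odd core. -/
theorem Zstar {G : Type u} [Group G] [Finite G] {t : G} (ht : orderOf t = 2)
    (hiso : ∀ g : G, Commute t (g * t * g⁻¹) → g * t * g⁻¹ = t) (g : G) :
    g * t * g⁻¹ * t⁻¹ ∈ pPrimeCore 2 G :=
  Zstar_main (by rw [← pow_two, ← ht, pow_orderOf_eq_one]) hiso g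

end CA.Blk
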