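import Cfsg.Agent.Blk.IZstar
import Cfsg.Agent.Fi.Dihedral

/-!
# Consequences of the Z*-theorem
-/

set_option autoImplicit false

open Cfsg CA.FG

namespace CA.Blk

universe u

variable {G : Type u} [Group G] [Finite G]

/-- an involution weakly closed in a Sylow 2-subgroup is isolated -/
theorem isolated_of_sylow {t : G} (ht : orderOf t = 2) (S : Sylow 2 G) (htS : t ∈ (S : Subgroup G))
    (h : ∀ g : G, g * t * g⁻¹ ∈ (S : Subgroup G) → g * t * g⁻¹ = t) (g : G)
    (hc : Commute t (g * t * g⁻¹)) : g * t * g⁻¹ = t := by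
  haveI : Fact (Nat.Prime 2) := ⟨Nat.prime_two⟩
  set s := g * t * g⁻¹ with hs
  have t2 : t * t = 1 := by rw [← pow_two, ← ht, pow_orderOf_eq_one]
  have s2 : s * s = 1 := by rw [hs]; calc _ = g * (t * t) * g⁻¹ := by group
    _ = 1 := by rw [t2]; group
  have hP : IsPGroup 2 (Subgroup.closure ({t, s} : Set G)) := by
    rintro ⟨x, hx⟩
    refine ⟨1, Subtype.ext ?_⟩
    have key : ∀ x ∈ Subgroup.closure ({t, s} : Set G), x = 1 ∨ x = t ∨ x = s ∨ x = t * s := by
      intro x hx
      have ti : t⁻¹ = t := inv_eq_of_mul_eq_one_right t2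
      have si : s⁻¹ = s := inv_eq_of_mul_eq_one_right s2
      have st : s * t = t * s := hc.eq.symm
      induction hx using Subgroup.closure_induction with
      | mem x hx => rcases hx with rfl | rfl <;> simp
      | one => simp
      | mul x y _ _ hx hy =>
        have e1 : t * (t * s) = s := by rw [← mul_assoc, t2, one_mul]
        have e2 : s * (t * s) = t := by rw [← mul_assoc, st, mul_assoc, s2, mul_one]
        have e3 : t * s * t = s := by rw [mul_assoc, st, e1]
        have e4 : t * s * s = t := by rw [mul_assoc, s2, mul_one]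
        have e5 : t * s * (t * s) = 1 := by rw [← mul_assoc, e3, s2]
        rcases hx with rfl | rfl | rfl | rfl <;> rcases hy with rfl | rfl | rfl | rfl <;>
          simp [t2, s2, st, e1, e2, e3, e4, e5]
      | inv x _ hx =>
        rcases hx with rfl | rfl | rfl | rfl <;> simp [ti, si, st]
    have st : s * t = t * s := hc.eq.symm
    have e5 : t * s * (t * s) = 1 := by
      rw [mul_assoc, ← mul_assoc s, st, mul_assoc, s2, mul_one, t2]
    rcases key x hx with rfl | rfl | rfl | rfl <;> simp [pow_two, t2, s2, e5]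
  obtain ⟨T, hT⟩ := hP.exists_le_sylow
  obtain ⟨x, hx⟩ := MulAction.exists_smul_eq G T S
  have mem : ∀ y ∈ (T : Subgroup G), x * y * x⁻¹ ∈ (S : Subgroup G) := by
    intro y hy
    rw [← hx]
    exact ⟨y, hy, rfl⟩
  have h1 := h x (mem t (hT (Subgroup.subset_closure (by simp))))
  have h2 := h (x * g) (by
    have := mem s (hT (Subgroup.subset_closure (by simp)))
    rw [hs] at this
    convert this using 1; group)
  have : x * s * x⁻¹ = x * t * x⁻¹ := by rw [h1, ← h2, hs]; group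
  simpa using this

theorem odd_card_oddCore (G : Type u) [Group G] [Finite G] : Odd (Nat.card (pPrimeCore 2 G)) := by
  rw [pPrimeCore_eq_top Nat.prime_two]
  have h := (pcore_piGrp ({2}ᶜ : Set ℕ) (⊤ : Subgroup G))
  rw [← Nat.not_even_iff_odd, even_iff_two_dvd]
  exact (piNat_compl_singleton_iff Nat.prime_two).mp h

/-- Z*: every conjugate of `t` is conjugate to `t` under the odd core -/
theorem Zstar_conj {t : G} (ht : orderOf t = 2)
    (hiso : ∀ g : G, Commute t (g * t * g⁻¹) → g * t * g⁻¹ = t) (g : G) :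
    ∃ k ∈ pPrimeCore 2 G, g * t * g⁻¹ = k * t * k⁻¹ := by
  have t2 : t * t = 1 := by rw [← pow_two, ← ht, pow_orderOf_eq_one]
  have ti : t⁻¹ = t := inv_eq_of_mul_eq_one_right t2
  have h := Zstar ht hiso g
  rw [ti] at h
  have s2 : (g * t * g⁻¹) * (g * t * g⁻¹) = 1 := by
    calc _ = g * (t * t) * g⁻¹ := by group
    _ = 1 := by rw [t2]; group
  have hp : (g * t * g⁻¹ * t) ^ Nat.card (pPrimeCore 2 G) = 1 :=
    congrArg Subtype.val (pow_card_eq_one' (x := (⟨_, h⟩ : pPrimeCore 2 G)))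
  obtain ⟨k, hk⟩ := CA.Fi.dih_conj_of_odd s2 t2 (odd_card_oddCore G) hp
  exact ⟨_, Subgroup.inv_mem _ (Subgroup.pow_mem _ h k), hk.symm⟩

/-- Z*: `G = O(G) C(t)` -/
theorem Zstar_sup {t : G} (ht : orderOf t = 2)
    (hiso : ∀ g : G, Commute t (g * t * g⁻¹) → g * t * g⁻¹ = t) :
    pPrimeCore 2 G ⊔ Subgroup.centralizer {t} = ⊤ := by
  rw [eq_top_iff]
  intro g _
  obtain ⟨k, hk, e⟩ := Zstar_conj ht hiso g
  have : k⁻¹ * g ∈ Subgroup.centralizer ({t} : Set G) := by
    rw [Subgroup.mem_centralizer_singleton_iff]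
    calc _ = k⁻¹ * (g * t * g⁻¹) * g := by group
    _ = _ := by rw [e]; group
  have e2 : g = k * (k⁻¹ * g) := by group
  rw [e2]
  exact Subgroup.mul_mem_sup hk this

/-- Z* inside a subgroup `H` -/
theorem Zstar_of {H : Subgroup G} {t : G} (ht : orderOf t = 2) (htH : t ∈ H)
    (hiso : ∀ g ∈ H, Commute t (g * t * g⁻¹) → g * t * g⁻¹ = t) {g : G} (hg : g ∈ H) :
    ∃ k ∈ pPrimeCoreOf 2 H, g * t * g⁻¹ = k * t * k⁻¹ := by
  obtain ⟨k, hk, e⟩ := Zstar_conj (G := H) (t := ⟨t, htH⟩) (by rw [← ht]; exact (Subgroup.orderOf_mk _ _))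
    (fun x hx => Subtype.ext (hiso x x.2 (congrArg Subtype.val hx.eq))) ⟨g, hg⟩
  refine ⟨k, ?_, congrArg Subtype.val e⟩
  rw [← pPrimeCore_map_subtype Nat.prime_two]
  exact ⟨k, hk, rfl⟩

theorem Zstar_sup_of {H : Subgroup G} {t : G} (ht : orderOf t = 2) (htH : t ∈ H)
    (hiso : ∀ g ∈ H, Commute t (g * t * g⁻¹) → g * t * g⁻¹ = t) :
    pPrimeCoreOf 2 H ⊔ (H ⊓ Subgroup.centralizer {t}) = H := by
  refine le_antisymm (sup_le (pcore_le _ _) inf_le_left) fun g hg => ?_
  obtain ⟨k, hk, e⟩ := Zstar_of ht htH hiso hg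
  have : k⁻¹ * g ∈ Subgroup.centralizer ({t} : Set G) := by
    rw [Subgroup.mem_centralizer_singleton_iff]
    calc _ = k⁻¹ * (g * t * g⁻¹) * g := by group
    _ = _ := by rw [e]; group
  have e2 : g = k * (k⁻¹ * g) := by group
  rw [e2]
  exact Subgroup.mul_mem_sup hk ⟨H.mul_mem (H.inv_mem (pcore_le _ _ hk)) hg, this⟩

/-- Z* when the odd core is trivial -/
theorem Zstar_center (hO : pPrimeCore 2 G = ⊥) {t : G} (ht : orderOf t = 2)
    (hiso : ∀ g : G, Commute t (g * t * g⁻¹) → g * t * g⁻¹ = t) : t ∈ Subgroup.center G := by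
  rw [Subgroup.mem_center_iff]
  intro g
  obtain ⟨k, hk, e⟩ := Zstar_conj ht hiso g
  rw [hO, Subgroup.mem_bot] at hk
  rw [hk] at e
  calc g * t = g * t * g⁻¹ * g := by group
  _ = _ := by rw [e]; group

/-- in a non-abelian simple group no involution is isolated -/
theorem exists_fused_of_simple [IsSimpleGroup G] (hG : ¬ IsMulCommutative G) {t : G}
    (ht : orderOf t = 2) : ∃ g : G, Commute t (g * t * g⁻¹) ∧ g * t * g⁻¹ ≠ t := by
  by_contra h
  push Not at h
  have hO : pPrimeCore 2 G = ⊥ := by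
    have hn : (pPrimeCore 2 G).Normal := by
      rw [pPrimeCore_eq_top Nat.prime_two]; exact normalIn_top.mp (pcore_normal _ _)
    refine (hn.eq_bot_or_eq_top).resolve_right fun e => ?_
    have := odd_card_oddCore G
    rw [e, Subgroup.card_top] at this
    exact absurd (this.of_dvd_nat (ht ▸ orderOf_dvd_natCard t)) (by decide)
  have hz := Zstar_center hO ht h
  rcases (Subgroup.center G).normal_of_characteristic.eq_bot_or_eq_top with e | e
  · rw [e, Subgroup.mem_bot] at hz
    simp [hz] at ht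
  · exact hG ⟨⟨fun a b => (Subgroup.mem_center_iff.mp (e ▸ Subgroup.mem_top b) a)⟩⟩

/-- the Brauer-Suzuki theorem: a Sylow 2-subgroup has a unique involution -/
theorem brauer_suzuki {t : G} (ht : orderOf t = 2) (S : Sylow 2 G) (htS : t ∈ (S : Subgroup G))
    (h : ∀ s ∈ (S : Subgroup G), orderOf s = 2 → s = t) :
    pPrimeCore 2 G ⊔ Subgroup.centralizer {t} = ⊤ :=
  Zstar_sup ht (isolated_of_sylow ht S htS fun g hg => h _ hg ((CA.Fi.orderOf_cj g t).trans ht))

end CA.Blk
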