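import Cfsg.Agent.Blk.Zmain
import Cfsg.Agent.FT

/-!
# An involution whose conjugates have products of `p`-power order
-/

set_option autoImplicit false

open Cfsg CA.FG

namespace CA.Blk

universe u

theorem Zp_aux {p : ℕ} (hp : p.Prime) (hp2 : p ≠ 2) (n : ℕ) : ∀ (G : Type u) [Group G] [Finite G],
    Nat.card G = n → ∀ d : G, d * d = 1 → (∀ g : G, IsPiElt {p} (g * d * g⁻¹ * d⁻¹)) →
    ∃ K : Subgroup G, K.Normal ∧ IsPGrp p K ∧ ∀ g, g * d * g⁻¹ * d⁻¹ ∈ K := by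
  induction n using Nat.strong_induction_on with
  | _ n ih =>
  intro G _ _ hn d dd h
  have di : d⁻¹ = d := inv_eq_of_mul_eq_one_right dd
  have ihq : ∀ (N : Subgroup G) [N.Normal], N ≠ ⊥ → ∃ K : Subgroup (G ⧸ N), K.Normal ∧ IsPGrp p K ∧
      ∀ g, g * d * g⁻¹ * d⁻¹ ∈ K.comap (QuotientGroup.mk' N) := fun N _ hN => by
    obtain ⟨K, h1, h2, h3⟩ := ih _ (by
      rw [← hn, N.card_eq_card_quotient_mul_card_subgroup]
      exact lt_mul_right Nat.card_pos ((Subgroup.one_lt_card_iff_ne_bot N).mpr hN)) (G ⧸ N) rfl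
      (QuotientGroup.mk' N d) (by rw [← map_mul, dd, map_one]) fun q => by
        obtain ⟨g, rfl⟩ := QuotientGroup.mk'_surjective N q
        simpa using (h g).map (QuotientGroup.mk' N)
    exact ⟨K, h1, h2, fun g => by simpa using h3 (QuotientGroup.mk' N g)⟩
  let N := Subgroup.normalClosure (Set.range fun g : G => g * d * g⁻¹ * d⁻¹)
  have mN : ∀ g, g * d * g⁻¹ * d⁻¹ ∈ N := fun g => Subgroup.subset_normalClosure ⟨g, rfl⟩
  have leN : ∀ (K : Subgroup G) [K.Normal], (∀ g, g * d * g⁻¹ * d⁻¹ ∈ K) → N ≤ K := fun K _ hK =>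
    Subgroup.normalClosure_le_normal (by rintro _ ⟨g, rfl⟩; exact hK g)
  by_cases N1 : N = ⊥
  · exact ⟨⊥, inferInstance, piGrp_bot _, N1 ▸ mN⟩
  have nO : (pPrimeCore 2 G).Normal := by
    rw [pPrimeCore_eq_top Nat.prime_two]; exact normalIn_top.mp (pcore_normal _ _)
  have hO := leN _ (Zstar_main dd fun g c => by
    have := ((h g).eq_one (PiNat.mono (pElt_of_pow_eq_one Nat.prime_two (by
      rw [di, c.symm.mul_pow, conj_pow, pow_two, dd]; simp)) (by simpa using hp2)))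
    exact mul_inv_eq_one.mp this)
  rw [pPrimeCore_eq_top Nat.prime_two] at hO
  obtain ⟨q, hq, M1⟩ := exists_pcore_ne_bot (CA.FT.odd_sol (H := N) (Nat.not_even_iff_odd.mp
    (even_iff_two_dvd.not.mpr ((piNat_compl_singleton_iff Nat.prime_two).mp ((pcore_piGrp _ _).of_le hO))))) N1
  haveI nM : (pCoreOf q N).Normal := normalIn_top.mp ((normalIn_top.mpr inferInstance).pcore _)
  have qM := pcore_pGrp q N
  have MN : pCoreOf q N ≤ N := pcore_le _ _
  generalize pCoreOf q N = M at *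
  obtain ⟨K, h1, h2, h3⟩ := ihq M M1
  by_cases e : q = p
  · exact ⟨_, inferInstance, IsPiGrp.comap h2 (by rwa [QuotientGroup.ker_mk', ← e]), h3⟩
  exfalso
  have c1 : d ∈ Subgroup.centralizer (M : Set G) := fun m hm => by
    have : m * d * m⁻¹ * d⁻¹ ∈ M := by
      have := mul_mem hm (nM.conj_mem _ (inv_mem hm) d)
      simpa [mul_assoc] using this
    rw [← mul_inv_eq_iff_eq_mul, ← mul_inv_eq_one]
    exact (h m).eq_one (PiNat.mono (IsPiGrp.piElt qM this) (by simpa using fun e' => e e'.symm))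
  have c2 := leN (Subgroup.centralizer (M : Set G)) fun g =>
    mul_mem ((inferInstance : (Subgroup.centralizer (M : Set G)).Normal).conj_mem _ c1 g) (inv_mem c1)
  haveI := Fact.mk hq
  obtain ⟨P⟩ : Nonempty (Sylow q N) := inferInstance
  obtain ⟨L, -, -, -, h5⟩ := exists_npc hq P fun g _ x hx => by
    obtain ⟨k, hk⟩ := P.2 ⟨x, hx⟩
    have := (IsPiGrp.piElt h2 (leN _ h3 x.2)).eq_one (PiNat.mono ((pElt_iff hq).mpr ⟨k, by
      rw [← map_pow, show (x : G) ^ q ^ k = 1 from congrArg Subtype.val (congrArg Subtype.val hk), map_one]⟩)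
      (by simpa using fun e' => e e'.symm))
    exact Subtype.ext (c2 g.2 x ((QuotientGroup.eq_one_iff _).mp this))
  haveI : (L.map N.subtype).Normal := ⟨by
    rintro _ ⟨y, hy, rfl⟩ g
    refine ⟨⟨_, (inferInstance : N.Normal).conj_mem _ y.2 g⟩, (h5 _).mpr ?_, rfl⟩
    rw [Subgroup.orderOf_mk, CA.Fi.orderOf_cj, Subgroup.orderOf_coe]
    exact (h5 y).mp hy⟩
  have h6 := leN (L.map N.subtype) fun g => ⟨⟨_, mN g⟩, (h5 _).mpr (by
    rw [Subgroup.orderOf_mk]; exact fun dv => e (h g q hq dv)), rfl⟩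
  obtain ⟨x, hx, ox⟩ := qM.exists_orderOf_eq M1
  obtain ⟨y, hy, rfl⟩ := h6 (MN hx)
  exact (h5 y).mp hy (by rw [← Subgroup.orderOf_coe]; exact ox.symm.dvd)

theorem Zp {G : Type u} [Group G] [Finite G] {p : ℕ} (hp : p.Prime) (hp2 : p ≠ 2) (d : G) (hd : orderOf d = 2)
    (hprod : ∀ a ∈ conjugatesOf d, ∀ b ∈ conjugatesOf d, ∃ k : ℕ, orderOf (a * b) = p ^ k) :
    ∀ a ∈ conjugatesOf d, ∀ b ∈ conjugatesOf d, a * b ∈ pCore p G := by
  have dd : d * d = 1 := by rw [← pow_two, ← hd, pow_orderOf_eq_one]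
  have di : d⁻¹ = d := inv_eq_of_mul_eq_one_right dd
  obtain ⟨K, h1, h2, h3⟩ := Zp_aux hp hp2 _ G rfl d dd fun g => by
    obtain ⟨k, hk⟩ := hprod _ (isConj_iff.mpr ⟨g, rfl⟩) d mem_conjugatesOf_self
    rw [di, IsPiElt, hk]
    exact piNat_self_pow hp k
  intro a ha b hb
  obtain ⟨x, rfl⟩ := isConj_iff.mp ha
  obtain ⟨y, rfl⟩ := isConj_iff.mp hb
  rw [pCore_eq_top hp]
  refine pcore_max (normalIn_top.mpr h1) h2 ?_
  convert mul_mem (h3 x) (inv_mem (h3 y)) using 1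
  nth_rewrite 2 [← di]
  group

end CA.Blk
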